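import Groth.Agent.Pi1.H421.SmoothLift2
import Groth.Agent.Flat2C.AffineThickening
import Groth.Agent.Flat2H.FSSmoothHom
import Mathlib.AlgebraicGeometry.Morphisms.Smooth
import Mathlib.AlgebraicGeometry.Pullbacks

/-!
Affine smooth schemes lift along square-zero thickenings `Spec A₀ → Spec A`; morphisms to smooth schemes extend along
affine thickenings.
-/

set_option autoImplicit false
universe u

open CategoryTheory CategoryTheory.Limits AlgebraicGeometry

namespace Groth.Agent.Pi1.H421.AffStep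

lemma lift_apply {B C T : Type u} [CommRing B] [CommRing C] [CommRing T] (q : B →+* C) (hq : Function.Surjective q)
    (g : B →+* T) (hg : RingHom.ker q ≤ RingHom.ker g) (x : B) :
    RingHom.liftOfSurjective q hq ⟨g, hg⟩ (q x) = g x :=
  RingHom.liftOfRightInverse_comp_apply q _ (Function.rightInverse_surjInv hq) ⟨g, hg⟩ x

lemma isPushout_of_ker {A A₀ B B₀ : Type u} [CommRing A] [CommRing A₀] [CommRing B] [CommRing B₀]
    (φ : A →+* A₀) (hφ : Function.Surjective φ) (β : A →+* B) (β₀ : A₀ →+* B₀) (q : B →+* B₀)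
    (hq : Function.Surjective q) (hc : q.comp β = β₀.comp φ) (hk : RingHom.ker q = (RingHom.ker φ).map β) :
    IsPushout (CommRingCat.ofHom β) (CommRingCat.ofHom φ) (CommRingCat.ofHom q) (CommRingCat.ofHom β₀) := by
  refine ⟨⟨by rw [← CommRingCat.ofHom_comp, ← CommRingCat.ofHom_comp, hc]⟩,
    ⟨PushoutCocone.IsColimit.mk _ (fun s => CommRingCat.ofHom (RingHom.liftOfSurjective q hq ⟨s.inl.hom, ?_⟩)) ?_ ?_ ?_⟩⟩
  · rw [hk, Ideal.map_le_iff_le_comap]
    intro a ha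
    have h1 := congr($(s.condition).hom a)
    change s.inl.hom (β a) = s.inr.hom (φ a) at h1
    change s.inl.hom (β a) = 0
    rw [h1, (show φ a = 0 from ha), map_zero]
  · intro s
    ext x
    exact lift_apply q hq _ _ x
  · intro s
    ext x
    obtain ⟨a, rfl⟩ := hφ x
    have h1 := congr($(s.condition).hom a)
    change s.inl.hom (β a) = s.inr.hom (φ a) at h1
    have h2 : β₀ (φ a) = q (β a) := congr($(hc) a).symm
    change RingHom.liftOfSurjective q hq _ (β₀ (φ a)) = s.inr.hom (φ a)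
    rw [h2, ← h1]
    exact lift_apply q hq _ _ (β a)
  · intro s m h1 h2
    ext x
    obtain ⟨b, rfl⟩ := hq x
    have h3 := congr($(h1).hom b)
    change m.hom (q b) = s.inl.hom b at h3
    change m.hom (q b) = RingHom.liftOfSurjective q hq _ (q b)
    rw [h3]
    exact (lift_apply q hq _ _ b).symm

variable {A A₀ : Type u} [CommRing A] [CommRing A₀] (φ : A →+* A₀) (hφ : Function.Surjective φ)
  (h2 : (RingHom.ker φ) ^ 2 = ⊥)

include hφ h2

/-- Affine smooth schemes lift along square-zero thickenings of the base. -/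
theorem exists_lift {U : Scheme.{u}} [IsAffine U] (g : U ⟶ Spec (CommRingCat.of A₀)) [Smooth g] :
    ∃ (U₁ : Scheme.{u}) (h : U₁ ⟶ Spec (CommRingCat.of A)) (u : U ⟶ U₁), IsAffine U₁ ∧ Smooth h ∧
      IsPullback u g h (Spec.map (CommRingCat.ofHom φ)) := by
  let B₀ : CommRingCat := Γ(U, ⊤)
  let ψ : CommRingCat.of A₀ ⟶ B₀ := Spec.preimage (U.isoSpec.inv ≫ g)
  have hψ : Spec.map ψ = U.isoSpec.inv ≫ g := Spec.map_preimage _
  let _ : Algebra A₀ B₀ := ψ.hom.toAlgebra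
  have h1 : Smooth (Spec.map ψ) := by rw [hψ]; infer_instance
  have hsm : Algebra.Smooth A₀ B₀ := (HasRingHomProperty.Spec_iff (P := @Smooth)).mp h1
  obtain ⟨B, _, _, q, h3, h4, h5, h6⟩ := SmoothLift2.exists_smooth_lift' φ hφ h2 B₀
  have hp := isPushout_of_ker φ hφ (algebraMap A B) ψ.hom q h4 h5 h6
  have hsq := isPullback_SpecMap_of_isPushout _ _ _ _ hp
  refine ⟨Spec (CommRingCat.of B), Spec.map (CommRingCat.ofHom (algebraMap A B)),
    U.isoSpec.hom ≫ Spec.map (CommRingCat.ofHom q), inferInstance, ?_, ?_⟩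
  · exact (HasRingHomProperty.Spec_iff (P := @Smooth)).mpr (RingHom.smooth_algebraMap.mpr h3)
  · refine IsPullback.of_iso hsq U.isoSpec.symm (Iso.refl _) (Iso.refl _) (Iso.refl _) ?_ ?_ ?_ ?_
    · change Spec.map (CommRingCat.ofHom q) ≫ 𝟙 _ = U.isoSpec.inv ≫ U.isoSpec.hom ≫ Spec.map (CommRingCat.ofHom q)
      rw [Iso.inv_hom_id_assoc, Category.comp_id]
    · change Spec.map ψ ≫ 𝟙 _ = U.isoSpec.inv ≫ g
      rw [Category.comp_id, hψ]
    · change Spec.map (CommRingCat.ofHom (algebraMap A B)) ≫ 𝟙 _ = 𝟙 _ ≫ _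
      rw [Category.comp_id, Category.id_comp]
    · change Spec.map (CommRingCat.ofHom φ) ≫ 𝟙 _ = 𝟙 _ ≫ _
      rw [Category.comp_id, Category.id_comp]

/-- Morphisms to smooth schemes extend along affine thickenings. -/
theorem exists_lift_mor {W W₁ X : Scheme.{u}} [IsAffine W₁] (w : W ⟶ W₁) (gW : W ⟶ Spec (CommRingCat.of A₀))
    (gW₁ : W₁ ⟶ Spec (CommRingCat.of A)) (hW : IsPullback w gW gW₁ (Spec.map (CommRingCat.ofHom φ)))
    (f : X ⟶ Spec (CommRingCat.of A)) [Smooth f] (a : W ⟶ X) (ha : a ≫ f = w ≫ gW₁) :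
    ∃ l : W₁ ⟶ X, w ≫ l = a ∧ l ≫ f = gW₁ := by
  let D : CommRingCat := Γ(W₁, ⊤)
  let ψ : CommRingCat.of A ⟶ D := Spec.preimage (W₁.isoSpec.inv ≫ gW₁)
  have hψ : Spec.map ψ = W₁.isoSpec.inv ≫ gW₁ := Spec.map_preimage _
  let I : Ideal D := (RingHom.ker φ).map ψ.hom
  have hI : I ^ 2 = ⊥ := by rw [← Ideal.map_pow, h2, Ideal.map_bot]
  have hβ : RingHom.ker φ ≤ RingHom.ker ((Ideal.Quotient.mk I).comp ψ.hom) := fun (x : A) hx => by
    change Ideal.Quotient.mk I (ψ.hom x) = 0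
    rw [Ideal.Quotient.eq_zero_iff_mem]
    exact Ideal.mem_map_of_mem ψ.hom hx
  let β₀ : A₀ →+* (D ⧸ I) := RingHom.liftOfSurjective φ hφ ⟨(Ideal.Quotient.mk I).comp ψ.hom, hβ⟩
  have hβ₀ : (Ideal.Quotient.mk I).comp ψ.hom = β₀.comp φ := by
    ext x
    exact (lift_apply φ hφ _ hβ x).symm
  have hp := isPushout_of_ker φ hφ ψ.hom β₀ (Ideal.Quotient.mk I) Ideal.Quotient.mk_surjective hβ₀
    Ideal.mk_ker
  have hsq := isPullback_SpecMap_of_isPushout _ _ _ _ hp
  have hsq' : IsPullback (Spec.map (CommRingCat.ofHom (Ideal.Quotient.mk I)) ≫ W₁.isoSpec.inv)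
      (Spec.map (CommRingCat.ofHom β₀)) gW₁ (Spec.map (CommRingCat.ofHom φ)) := by
    refine IsPullback.of_iso hsq (Iso.refl _) W₁.isoSpec.symm (Iso.refl _) (Iso.refl _) ?_ ?_ ?_ ?_
    · simp
    · simp
    · change Spec.map ψ ≫ 𝟙 _ = W₁.isoSpec.inv ≫ gW₁
      rw [Category.comp_id, hψ]
    · simp
  let e : Spec (CommRingCat.of (D ⧸ I)) ≅ W := hsq'.isoIsPullback _ _ hW
  have he1 : e.hom ≫ w = Spec.map (CommRingCat.ofHom (Ideal.Quotient.mk I)) ≫ W₁.isoSpec.inv :=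
    hsq'.isoIsPullback_hom_fst _ _ hW
  have hfs : MoreMor.IsFormallySmoothHom f := ((Groth.Agent.Flat2H.FSSmoothHom.smooth_iff f).mp inferInstance).2
  obtain ⟨l, hl1, hl2⟩ := hfs D I hI (e.hom ≫ a) (W₁.isoSpec.inv ≫ gW₁) (by
    rw [Category.assoc, ha, ← Category.assoc, ← Category.assoc, ← he1])
  refine ⟨W₁.isoSpec.hom ≫ l, ?_, ?_⟩
  · rw [← cancel_epi e.hom, ← hl1, ← Category.assoc, he1, Category.assoc, Iso.inv_hom_id_assoc]
  · rw [Category.assoc, hl2, Iso.hom_inv_id_assoc]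

end Groth.Agent.Pi1.H421.AffStep
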