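import Groth.Agent.Pi1.H421.GalAlg
import Groth.Prelude.Def_SGA1t
import Mathlib.RingTheory.Coprime.Lemmas
import Mathlib.Algebra.Polynomial.RingDivision
import Mathlib.Algebra.CharP.Lemmas

/-!
Artin-Schreier theory for Galois algebras with group `Z/p` over a ring of characteristic `p`.
-/

set_option autoImplicit false
set_option linter.unusedSectionVars false
universe u v

namespace Groth.Agent.Pi1.H421.ArtSch

open TensorProduct Groth.Agent.Pi1.H421.GalAlg Polynomial Multiplicative

variable {A B : Type u} [CommRing A] [CommRing B] [Algebra A B] {p : ℕ} [Fact p.Prime] [CharP A p]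
  [MulSemiringAction (Multiplicative (ZMod p)) B] [SMulCommClass (Multiplicative (ZMod p)) A B]

variable (A B p) in
/-- `Z/p → B`. -/
noncomputable def cst : ZMod p →+* B := (algebraMap A B).comp (ZMod.castHom (dvd_refl p) A)

theorem smul_algebraMap' (g : Multiplicative (ZMod p)) (a : A) :
    g • algebraMap A B a = algebraMap A B a := by
  rw [Algebra.algebraMap_eq_smul_one, smul_comm, smul_one]

theorem smul_cst (g : Multiplicative (ZMod p)) (j : ZMod p) : g • cst A B p j = cst A B p j :=
  smul_algebraMap' g _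

theorem isUnit_cst (j : ZMod p) (hj : j ≠ 0) : IsUnit (cst A B p j) :=
  (IsUnit.mk0 j hj).map (cst A B p)

/-- An element on which `Z/p` acts by translations. -/
theorem exists_translate (b : B) (hb : ∑ g : Multiplicative (ZMod p), g • b = 1) :
    ∃ t : B, ∀ m : ZMod p, ofAdd m • t = t - cst A B p m := by
  have hb' : ∑ k : ZMod p, ofAdd k • b = 1 := by
    rw [← hb]
    exact Fintype.sum_equiv ofAdd _ _ (fun _ => rfl)
  refine ⟨∑ k : ZMod p, cst A B p k * (ofAdd k • b), fun m => ?_⟩
  rw [Finset.smul_sum]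
  have h1 : ∑ k : ZMod p, ofAdd m • (cst A B p k * (ofAdd k • b)) =
      ∑ k : ZMod p, cst A B p (k - m) * (ofAdd k • b) := by
    refine Fintype.sum_equiv (Equiv.addRight m) _ _ (fun k => ?_)
    rw [smul_mul', smul_cst, ← mul_smul, ← ofAdd_add, Equiv.coe_addRight, add_sub_cancel_right,
      add_comm m k]
  rw [h1]
  have h2 : ∀ k, cst A B p (k - m) * (ofAdd k • b) =
      cst A B p k * (ofAdd k • b) - cst A B p m * (ofAdd k • b) := by
    intro k
    rw [map_sub, sub_mul]
  rw [Finset.sum_congr rfl fun k _ => h2 k, Finset.sum_sub_distrib, ← Finset.mul_sum, hb', mul_one]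

theorem smul_pow_sub (hinj : Function.Injective (algebraMap A B)) (t : B)
    (ht : ∀ m : ZMod p, ofAdd m • t = t - cst A B p m)
    (m : ZMod p) : ofAdd m • (t ^ p - t) = t ^ p - t := by
  have : CharP B p := charP_of_injective_algebraMap hinj p
  rw [smul_sub, smul_pow', ht, sub_pow_char, ← map_pow, ZMod.pow_card]
  ring

/-- The Lagrange interpolation polynomial. -/
noncomputable def lag (t b : B) : B[X] :=
  ∑ k : ZMod p, C (ofAdd k • b) * ∏ l ∈ Finset.univ.erase k, (X - C (ofAdd l • t))

theorem map_lag (t b : B) (m : ZMod p) :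
    (lag (p := p) t b).map (MulSemiringAction.toRingHom (Multiplicative (ZMod p)) B (ofAdd m)) =
      lag (p := p) t b := by
  rw [lag, Polynomial.map_sum]
  refine Fintype.sum_equiv (Equiv.addLeft m) _ _ (fun k => ?_)
  rw [Polynomial.map_mul, Polynomial.map_prod, map_C, MulSemiringAction.toRingHom_apply, ← mul_smul,
    ← ofAdd_add, Equiv.coe_addLeft]
  congr 1
  refine Finset.prod_equiv (Equiv.addLeft m) ?_ ?_
  · intro l; simp
  · intro l _
    rw [Polynomial.map_sub, map_X, map_C, MulSemiringAction.toRingHom_apply, ← mul_smul,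
      ← ofAdd_add, Equiv.coe_addLeft]

theorem eval_lag (t b : B) (ht : ∀ m : ZMod p, ofAdd m • t = t - cst A B p m) :
    (lag (p := p) t b).eval t = b * cst A B p (∏ l ∈ Finset.univ.erase (0 : ZMod p), l) := by
  rw [lag, eval_finsetSum, Finset.sum_eq_single 0]
  · rw [eval_mul, eval_C, ofAdd_zero, one_smul, eval_prod, map_prod]
    congr 1
    refine Finset.prod_congr rfl fun l _ => ?_
    rw [eval_sub, eval_X, eval_C, ht]
    ring
  · intro k _ hk
    rw [eval_mul, eval_prod]
    rw [Finset.prod_eq_zero (i := (0 : ZMod p)) (Finset.mem_erase.mpr ⟨hk.symm, Finset.mem_univ _⟩),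
      mul_zero]
    rw [eval_sub, eval_X, eval_C, ofAdd_zero, one_smul, sub_self]
  · intro h
    exact absurd (Finset.mem_univ _) h

theorem surj [Algebra.IsInvariant A B (Multiplicative (ZMod p))] (t : B)
    (ht : ∀ m : ZMod p, ofAdd m • t = t - cst A B p m) (b : B) :
    ∃ F : A[X], aeval t F = b := by
  have h1 : lag (p := p) t b ∈ Polynomial.lifts (algebraMap A B) := by
    rw [Polynomial.lifts_iff_coeff_lifts]
    intro n
    refine Algebra.IsInvariant.isInvariant (A := A) (G := Multiplicative (ZMod p)) _ fun g => ?_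
    have h2 := congrArg (fun q => q.coeff n) (map_lag (p := p) t b (toAdd g))
    simpa using h2
  obtain ⟨F, hF⟩ := (Polynomial.mem_lifts _).mp h1
  set w : ZMod p := ∏ l ∈ Finset.univ.erase (0 : ZMod p), l with hw
  have hw0 : w ≠ 0 := Finset.prod_ne_zero_iff.mpr fun l hl => Finset.ne_of_mem_erase hl
  refine ⟨C (ZMod.castHom (dvd_refl p) A w⁻¹) * F, ?_⟩
  rw [map_mul, aeval_C, aeval_def, ← eval_map, hF, eval_lag t b ht, ← hw]
  change cst A B p w⁻¹ * (b * cst A B p w) = b
  rw [mul_left_comm, ← map_mul, inv_mul_cancel₀ hw0, map_one, mul_one]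

theorem inj (hinj : Function.Injective (algebraMap A B)) (t : B)
    (ht : ∀ m : ZMod p, ofAdd m • t = t - cst A B p m) (F : A[X]) (hF : aeval t F = 0)
    (hdeg : F.degree < p) : F = 0 := by
  have hA : Nontrivial A := CharP.nontrivial_of_char_ne_one (R := A) (Fact.out : p.Prime).ne_one
  have hB : Nontrivial B := hinj.nontrivial
  have h1 : ∀ m : ZMod p, (F.map (algebraMap A B)).eval (t - cst A B p m) = 0 := by
    intro m
    rw [← ht m, eval_map, ← aeval_def]
    have h2 : aeval (ofAdd m • t) F = ofAdd m • aeval t F := by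
      have := Polynomial.hom_eval₂ F (algebraMap A B)
        (MulSemiringAction.toRingHom (Multiplicative (ZMod p)) B (ofAdd m)) t
      rw [aeval_def, aeval_def]
      rw [MulSemiringAction.toRingHom_apply, MulSemiringAction.toRingHom_apply] at this
      rw [this]
      congr 1
      ext a
      exact (smul_algebraMap' (ofAdd m) a).symm
    rw [h2, hF, smul_zero]
  have h3 : ∏ m : ZMod p, (X - C (t - cst A B p m)) ∣ F.map (algebraMap A B) := by
    refine Finset.prod_dvd_of_coprime ?_ ?_
    · intro m _ n _ hmn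
      refine Polynomial.isCoprime_X_sub_C_of_isUnit_sub ?_
      have : t - cst A B p m - (t - cst A B p n) = cst A B p (n - m) := by
        rw [map_sub]; ring
      rw [this]
      exact isUnit_cst _ (sub_ne_zero.mpr (Ne.symm hmn))
    · intro m _
      exact Polynomial.dvd_iff_isRoot.mpr (h1 m)
  by_contra hne
  have h4 : F.map (algebraMap A B) ≠ 0 := by
    rwa [ne_eq, Polynomial.map_eq_zero_iff hinj]
  refine Polynomial.Monic.not_dvd_of_degree_lt (monic_prod_X_sub_C _ _) h4 ?_ h3
  rw [degree_prod_of_monic _ _ (fun m _ => monic_X_sub_C _)]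
  simp only [degree_X_sub_C, Finset.sum_const, Finset.card_univ, ZMod.card, nsmul_eq_mul, mul_one]
  exact degree_map_le.trans_lt hdeg

variable (A p) in
theorem monic_poly (a : A) : ((X : A[X]) ^ p - X - C a).Monic ∧
    ((X : A[X]) ^ p - X - C a).degree = (p : WithBot ℕ) := by
  have hA : Nontrivial A := CharP.nontrivial_of_char_ne_one (R := A) (Fact.out : p.Prime).ne_one
  have hp : 1 < p := (Fact.out : p.Prime).one_lt
  have h1 : ((X : A[X]) + C a).degree < p := by
    refine degree_X_add_C a |>.le.trans_lt ?_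
    exact_mod_cast hp
  have h2 : (X : A[X]) ^ p - X - C a = X ^ p - (X + C a) := by ring
  rw [h2]
  refine ⟨monic_X_pow_sub h1, ?_⟩
  rw [degree_sub_eq_left_of_degree_lt (by simpa using h1), degree_X_pow]

end Groth.Agent.Pi1.H421.ArtSch
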