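import Groth.Agent.CalgB.EtaleNbhd
import Groth.Agent.Pi1A.EtaleLift
import Mathlib.RingTheory.Smooth.Basic
import Mathlib.RingTheory.FinitePresentation
import Mathlib.RingTheory.Nilpotent.Basic
import Mathlib.LinearAlgebra.TensorProduct.RightExactness

/-!
Global lifting of smooth affine schemes along square-zero (and nilpotent) thickenings of the base:
if `A → A₀` is surjective with square-zero kernel and `B₀` is smooth over `A₀`, there is a smooth `A`-algebra `B`
with `A₀ ⊗ B = B₀`. Proof: `B₀` is a retract of an algebra etale over a polynomial ring, that one lifts, and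
idempotent endomorphisms lift.
-/

set_option autoImplicit false
universe u

namespace Groth.Agent.Pi1.H421.SmoothLift

open TensorProduct

section Retract

variable {R B C : Type u} [CommRing R] [CommRing B] [CommRing C] [Algebra R B] [Algebra R C]

lemma formallySmooth_of_retract (a : B →ₐ[R] C) (b : C →ₐ[R] B) (h : b.comp a = AlgHom.id R B)
    [Algebra.FormallySmooth R C] : Algebra.FormallySmooth R B := by
  refine .of_comp_surjective fun D _ _ I hI f => ?_
  obtain ⟨g, hg⟩ := Algebra.FormallySmooth.comp_surjective R C I hI (f.comp b)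
  refine ⟨g.comp a, ?_⟩
  have h1 : (Ideal.Quotient.mkₐ R I).comp g = f.comp b := hg
  change (Ideal.Quotient.mkₐ R I).comp (g.comp a) = f
  rw [← AlgHom.comp_assoc, h1, AlgHom.comp_assoc, h, AlgHom.comp_id]

lemma finitePresentation_of_retract (a : B →ₐ[R] C) (b : C →ₐ[R] B)
    (h : b.comp a = AlgHom.id R B) [Algebra.FinitePresentation R C] :
    Algebra.FinitePresentation R B := by
  have hb : Function.Surjective b := fun x => ⟨a x, DFunLike.congr_fun h x⟩
  refine Algebra.FinitePresentation.of_surjective hb ?_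
  obtain ⟨s, hs⟩ := (inferInstance : Algebra.FiniteType R C).out
  classical
  refine ⟨s.image fun c => c - a (b c), le_antisymm ?_ ?_⟩
  · rw [Ideal.span_le]
    rintro _ hc
    rw [Finset.coe_image] at hc
    obtain ⟨c, -, rfl⟩ := hc
    change b (c - a (b c)) = 0
    rw [map_sub]
    have : b (a (b c)) = b c := DFunLike.congr_fun h (b c)
    rw [this, sub_self]
  · intro c hc
    set J : Ideal C := Ideal.span ((s.image fun c => c - a (b c) : Finset C) : Set C) with hJ
    have h1 : (Ideal.Quotient.mkₐ R J).comp (a.comp b) = Ideal.Quotient.mkₐ R J := by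
      apply AlgHom.ext_of_adjoin_eq_top hs
      intro x hx
      change Ideal.Quotient.mk J (a (b x)) = Ideal.Quotient.mk J x
      symm
      rw [Ideal.Quotient.eq]
      apply Ideal.subset_span
      rw [Finset.coe_image]
      exact ⟨x, hx, rfl⟩
    have h2 : Ideal.Quotient.mk J (a (b c)) = Ideal.Quotient.mk J c := DFunLike.congr_fun h1 c
    have h3 : b c = 0 := hc
    rw [h3, map_zero, map_zero] at h2
    exact Ideal.Quotient.eq_zero_iff_mem.mp h2.symm

lemma smooth_of_retract (a : B →ₐ[R] C) (b : C →ₐ[R] B) (h : b.comp a = AlgHom.id R B)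
    [Algebra.Smooth R C] : Algebra.Smooth R B :=
  { formallySmooth := formallySmooth_of_retract a b h
    finitePresentation := finitePresentation_of_retract a b h }

end Retract

section Idem

variable {A C C₀ : Type u} [CommRing A] [CommRing C] [CommRing C₀] [Algebra A C] [Algebra A C₀]

/-- Lifting idempotent endomorphisms of an algebra along a square-zero thickening coming from the base. -/
theorem exists_idem_lift (I : Ideal A) (hI : I ^ 2 = ⊥) (π : C →ₐ[A] C₀) (hker : RingHom.ker π = I.map (algebraMap A C))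
    (e₀ : C₀ →ₐ[A] C₀) (he₀ : e₀.comp e₀ = e₀) (e : C →ₐ[A] C) (he : π.comp e = e₀.comp π) :
    ∃ e' : C →ₐ[A] C, e'.comp e' = e' ∧ π.comp e' = e₀.comp π := by
  have hK2 : ∀ x ∈ RingHom.ker π, ∀ y ∈ RingHom.ker π, x * y = 0 := by
    intro x hx y hy
    rw [hker] at hx hy
    have h1 : x * y ∈ (I.map (algebraMap A C)) ^ 2 := by
      rw [pow_two]; exact Ideal.mul_mem_mul hx hy
    rw [← Ideal.map_pow, hI, Ideal.map_bot] at h1
    exact (Submodule.mem_bot _).mp h1
  have hπe : ∀ x, π (e x) = e₀ (π x) := fun x => congr($he x)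
  have he₀' : ∀ x, e₀ (e₀ x) = e₀ x := fun x => congr($he₀ x)
  let D : C →ₗ[A] C := (e.comp e).toLinearMap - e.toLinearMap
  have hD : ∀ x, D x = e (e x) - e x := fun x => rfl
  have hDker : ∀ x, D x ∈ RingHom.ker π := by
    intro x
    rw [RingHom.mem_ker, hD, map_sub, hπe, hπe, he₀', sub_self]
  have heker : ∀ x ∈ RingHom.ker π, e x ∈ RingHom.ker π := by
    intro x hx
    rw [RingHom.mem_ker] at hx ⊢
    rw [hπe, hx, map_zero]
  have hDmul : ∀ x y, D (x * y) = e x * D y + e y * D x := by
    intro x y
    have h1 := hK2 _ (hDker x) _ (hDker y)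
    have h2 : e (e x) = e x + D x := by rw [hD]; ring
    have h3 : e (e y) = e y + D y := by rw [hD]; ring
    rw [hD (x * y), map_mul, map_mul, h2, h3]
    linear_combination h1
  have hDK : ∀ x ∈ RingHom.ker π, D x = 0 := by
    intro x hx
    rw [hker] at hx
    refine Submodule.span_induction (p := fun x _ => D x = 0) ?_ (map_zero D) ?_ ?_ hx
    · rintro _ ⟨a, ha, rfl⟩
      rw [hD, AlgHom.commutes, AlgHom.commutes, sub_self]
    · intro x y _ _ hx hy
      rw [map_add, hx, hy, add_zero]
    · intro c x hx' hx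
      rw [smul_eq_mul, hDmul, hx, mul_zero, zero_add]
      refine hK2 _ (heker x ?_) _ (hDker c)
      rw [hker]; exact hx'
  let δ : C →ₗ[A] C := D - (e.toLinearMap.comp D + e.toLinearMap.comp D)
  have hδ : ∀ x, δ x = D x - 2 * e (D x) := by
    intro x
    have : δ x = D x - (e (D x) + e (D x)) := rfl
    rw [this]; ring
  have hδker : ∀ x, δ x ∈ RingHom.ker π := by
    intro x
    rw [hδ]
    exact Ideal.sub_mem _ (hDker x) (Ideal.mul_mem_left _ _ (heker _ (hDker x)))
  have hδmul : ∀ x y, δ (x * y) = e x * δ y + e y * δ x := by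
    intro x y
    have h2 : e (e x) = e x + D x := by rw [hD]; ring
    have h3 : e (e y) = e y + D y := by rw [hD]; ring
    have h4 := hK2 _ (hDker x) _ (heker _ (hDker y))
    have h5 := hK2 _ (hDker y) _ (heker _ (hDker x))
    rw [hδ, hδ, hδ, hDmul, map_add, map_mul, map_mul, h2, h3]
    linear_combination -2 * h4 - 2 * h5
  have hδone : δ 1 = 0 := by
    have := hδmul 1 1
    simp only [mul_one, map_one, one_mul] at this
    linear_combination -this
  let e' : C →ₐ[A] C := AlgHom.ofLinearMap (e.toLinearMap + δ)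
    (by rw [LinearMap.add_apply, AlgHom.toLinearMap_apply, map_one, hδone, add_zero])
    (by
      intro x y
      rw [LinearMap.add_apply, LinearMap.add_apply, LinearMap.add_apply, AlgHom.toLinearMap_apply,
        AlgHom.toLinearMap_apply, AlgHom.toLinearMap_apply, map_mul, hδmul]
      have := hK2 _ (hδker x) _ (hδker y)
      linear_combination -this)
  have he' : ∀ x, e' x = e x + δ x := fun x => rfl
  refine ⟨e', ?_, ?_⟩
  · ext x
    change e' (e' x) = e' x
    have h6 : e (D x) = D (e x) := by rw [hD, hD, map_sub]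
    have h7 : D (D x) = 0 := hDK _ (hDker x)
    have h8 : D (e (D x)) = 0 := hDK _ (heker _ (hDker x))
    have h9 : e (e x) = e x + D x := by rw [hD]; ring
    have h10 : e (e (D x)) = e (D x) := by
      have := hD (D x)
      rw [h7] at this
      exact (sub_eq_zero.mp this.symm)
    have h11 : e (δ x) = e (D x) - 2 * e (D x) := by
      rw [hδ, map_sub, map_mul, map_ofNat, h10]
    have h12 : δ (δ x) = 0 := by
      have : D (δ x) = 0 := hDK _ (hδker x)
      rw [hδ (δ x), this, map_zero, mul_zero, sub_zero]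
    have h13 : δ (e x) = e (D x) - 2 * e (D x) := by
      rw [hδ (e x), ← h6, h10]
    rw [he' (e' x), he' x, map_add, map_add, h9, h11, h12, h13, hδ x]
    ring
  · ext x
    change π (e' x) = e₀ (π x)
    rw [he', map_add, hπe]
    have : π (δ x) = 0 := hδker x
    rw [this, add_zero]

end Idem

section RetractLift

variable {A A₀ C C₀ B₀ : Type u} [CommRing A] [CommRing A₀] [Algebra A A₀] [CommRing C] [CommRing C₀] [CommRing B₀]
  [Algebra A C] [Algebra A C₀] [Algebra A B₀]

/-- A retract of (the reduction of) a smooth algebra lifts to a smooth algebra. -/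
theorem exists_lift_of_retract (I : Ideal A) (hI : I ^ 2 = ⊥) [Algebra.Smooth A C] (π : C →ₐ[A] C₀)
    (hπ : Function.Surjective π) (hker : RingHom.ker π = I.map (algebraMap A C))
    (τ : B₀ →ₐ[A] C₀) (r : C₀ →ₐ[A] B₀) (hr : r.comp τ = AlgHom.id A B₀) :
    ∃ (B : Type u) (_ : CommRing B) (_ : Algebra A B) (q : B →ₐ[A] B₀), Algebra.Smooth A B ∧
      Function.Surjective q ∧ RingHom.ker q = I.map (algebraMap A B) := by
  have hr' : ∀ x, r (τ x) = x := fun x => congr($hr x)
  have hK2 : IsNilpotent (RingHom.ker (π : C →+* C₀)) := by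
    refine ⟨2, ?_⟩
    have h0 : RingHom.ker (π : C →+* C₀) = RingHom.ker π := rfl
    rw [h0, hker, ← Ideal.map_pow, hI, Ideal.map_bot]
    rfl
  let e₀ : C₀ →ₐ[A] C₀ := τ.comp r
  have he₀ : e₀.comp e₀ = e₀ := by
    ext x
    change τ (r (τ (r x))) = τ (r x)
    rw [hr']
  let e : C →ₐ[A] C := Algebra.FormallySmooth.liftOfSurjective (e₀.comp π) π hπ hK2
  have he : π.comp e = e₀.comp π := Algebra.FormallySmooth.comp_liftOfSurjective _ _ _ _
  obtain ⟨e', h1, h2⟩ := exists_idem_lift I hI π hker e₀ he₀ e he
  have h1' : ∀ x, e' (e' x) = e' x := fun x => congr($h1 x)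
  have h2' : ∀ x, π (e' x) = τ (r (π x)) := fun x => congr($h2 x)
  let B : Subalgebra A C := AlgHom.equalizer e' (AlgHom.id A C)
  have hB : ∀ x, x ∈ B ↔ e' x = x := fun x => Iff.rfl
  let ρ : C →ₐ[A] B := e'.codRestrict B (fun x => (hB _).mpr (h1' x))
  have hρ : ρ.comp B.val = AlgHom.id A B := by
    ext x
    exact x.2
  let q : B →ₐ[A] B₀ := (r.comp π).comp B.val
  refine ⟨B, inferInstance, inferInstance, q, smooth_of_retract B.val ρ hρ, ?_, ?_⟩
  · intro b
    obtain ⟨c, hc⟩ := hπ (τ b)
    refine ⟨ρ c, ?_⟩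
    change r (π (e' c)) = b
    rw [h2', hr', hc, hr']
  · apply le_antisymm
    · intro b hb
      have hb1 : r (π (b : C)) = 0 := hb
      have hb2 : e' (b : C) = b := b.2
      have hb3 : π (b : C) = 0 := by
        rw [← hb2, h2', hb1, map_zero]
      have hb4 : (b : C) ∈ I.map (algebraMap A C) := by
        rw [← hker]; exact hb3
      have hb5 : ρ (b : C) ∈ (I.map (algebraMap A C)).map ρ.toRingHom := Ideal.mem_map_of_mem _ hb4
      rw [Ideal.map_map] at hb5
      have hb6 : ρ.toRingHom.comp (algebraMap A C) = algebraMap A B := ρ.comp_algebraMap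
      rw [hb6] at hb5
      have hb7 : ρ (b : C) = b := congr($hρ b)
      rwa [hb7] at hb5
    · rw [Ideal.map_le_iff_le_comap]
      intro a ha
      change r (π (algebraMap A C a)) = 0
      have : algebraMap A C a ∈ RingHom.ker π := by
        rw [hker]; exact Ideal.mem_map_of_mem _ ha
      rw [(show π (algebraMap A C a) = 0 from this), map_zero]

end RetractLift

end Groth.Agent.Pi1.H421.SmoothLift
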