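import Groth.Agent.Pi1.H421.SmoothLift

/-!
Global lifting of smooth affine schemes along square-zero thickenings of the base.
-/

set_option autoImplicit false
universe u

namespace Groth.Agent.Pi1.H421.SmoothLift2

open TensorProduct Groth.Agent.Pi1.H421.SmoothLift

/-- Lifting etale algebras, with a reduction map. -/
theorem exists_etale_lift' {P P₀ : Type u} [CommRing P] [CommRing P₀] (φ : P →+* P₀)
    (hφ : Function.Surjective φ) (C₀ : Type u) [CommRing C₀] [Algebra P₀ C₀] [Algebra.Etale P₀ C₀] :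
    ∃ (C : Type u) (_ : CommRing C) (_ : Algebra P C) (π : C →+* C₀), Algebra.Etale P C ∧
      Function.Surjective π ∧ π.comp (algebraMap P C) = (algebraMap P₀ C₀).comp φ ∧
      RingHom.ker π = (RingHom.ker φ).map (algebraMap P C) := by
  let _ : Algebra P P₀ := φ.toAlgebra
  obtain ⟨E, _, _, hE, ⟨e⟩⟩ := Groth.Agent.Pi1A.EtaleLift.exists_etale_lift (R₀ := P) (R := P₀) hφ C₀
  let ι : E →+* P₀ ⊗[P] E := (Algebra.TensorProduct.includeRight : E →ₐ[P] P₀ ⊗[P] E).toRingHom
  have hι : Function.Surjective ι := by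
    intro z
    induction z with
    | zero => exact ⟨0, map_zero _⟩
    | tmul x y =>
      obtain ⟨p, rfl⟩ := hφ x
      refine ⟨p • y, ?_⟩
      change (1 : P₀) ⊗ₜ[P] (p • y) = _
      rw [TensorProduct.tmul_smul, TensorProduct.smul_tmul']
      congr 1
      exact (Algebra.algebraMap_eq_smul_one p).symm
    | add x y hx hy =>
      obtain ⟨a, rfl⟩ := hx
      obtain ⟨b, rfl⟩ := hy
      exact ⟨a + b, map_add _ _ _⟩
  have hιker : RingHom.ker ι = (RingHom.ker φ).map (algebraMap P E) := by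
    have h1 := Algebra.TensorProduct.rTensor_ker (R := P) (S := P) (A := P) (B := P₀) (C := E)
      (Algebra.ofId P P₀) hφ
    let l : P ⊗[P] E ≃ₐ[P] E := Algebra.TensorProduct.lid P E
    have h2 : ι.comp l.toAlgHom.toRingHom = (Algebra.TensorProduct.map (Algebra.ofId P P₀) (AlgHom.id P E)).toRingHom := by
      apply RingHom.ext
      intro z
      induction z with
      | zero => simp
      | tmul x y =>
        change (1 : P₀) ⊗ₜ[P] (x • y) = (algebraMap P P₀ x) ⊗ₜ[P] y
        rw [TensorProduct.tmul_smul, TensorProduct.smul_tmul']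
        congr 1
        exact (Algebra.algebraMap_eq_smul_one x).symm
      | add x y hx hy => rw [map_add, hx, hy, map_add]
    ext x
    constructor
    · intro hx
      have h3 : l.symm x ∈ RingHom.ker (Algebra.TensorProduct.map (Algebra.ofId P P₀) (AlgHom.id P E)) := by
        change (Algebra.TensorProduct.map (Algebra.ofId P P₀) (AlgHom.id P E)).toRingHom (l.symm x) = 0
        rw [← h2]
        change ι (l (l.symm x)) = 0
        rw [AlgEquiv.apply_symm_apply]
        exact hx
      rw [h1] at h3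
      have h4 := Ideal.mem_map_of_mem (l.toAlgHom.toRingHom) h3
      change l (l.symm x) ∈ _ at h4
      rw [AlgEquiv.apply_symm_apply, AlgHom.coe_ideal_map, Ideal.map_map] at h4
      have h5 : (l.toAlgHom.toRingHom).comp (Algebra.TensorProduct.includeLeft : P →ₐ[P] P ⊗[P] E).toRingHom =
          algebraMap P E := by
        apply RingHom.ext
        intro p
        change l (p ⊗ₜ 1) = _
        rw [Algebra.TensorProduct.lid_tmul, Algebra.algebraMap_eq_smul_one]
      have h6 : (l.toAlgHom.toRingHom).comp (RingHomClass.toRingHom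
          (Algebra.TensorProduct.includeLeft : P →ₐ[P] P ⊗[P] E)) = algebraMap P E := h5
      rw [h6] at h4
      exact h4
    · intro hx
      have h3 : (RingHom.ker φ).map (algebraMap P E) ≤ RingHom.ker ι := by
        rw [Ideal.map_le_iff_le_comap]
        intro p hp
        change (1 : P₀) ⊗ₜ[P] (algebraMap P E p) = 0
        rw [Algebra.algebraMap_eq_smul_one, TensorProduct.tmul_smul, TensorProduct.smul_tmul',
          ← Algebra.algebraMap_eq_smul_one]
        rw [show algebraMap P P₀ p = 0 from hp, TensorProduct.zero_tmul]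
      exact h3 hx
  refine ⟨E, inferInstance, inferInstance, e.toAlgHom.toRingHom.comp ι, hE, ?_, ?_, ?_⟩
  · exact e.surjective.comp hι
  · apply RingHom.ext
    intro p
    change e ((1 : P₀) ⊗ₜ[P] (algebraMap P E p)) = algebraMap P₀ C₀ (φ p)
    have h3 : (1 : P₀) ⊗ₜ[P] (algebraMap P E p) = algebraMap P₀ (P₀ ⊗[P] E) (φ p) := by
      rw [Algebra.algebraMap_eq_smul_one, TensorProduct.tmul_smul, TensorProduct.smul_tmul',
          ← Algebra.algebraMap_eq_smul_one]
      rfl
    rw [h3, AlgEquiv.commutes]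
  · rw [← hιker]
    ext x
    constructor
    · intro hx
      have hx' : e (ι x) = 0 := hx
      exact (map_eq_zero_iff e e.injective).mp hx'
    · intro hx
      change e (ι x) = 0
      rw [(show ι x = 0 from hx), map_zero]

/-- A smooth algebra is a retract of an algebra etale over a polynomial ring. -/
theorem exists_retract (A₀ B₀ : Type u) [CommRing A₀] [CommRing B₀] [Algebra A₀ B₀] [Algebra.Smooth A₀ B₀] :
    ∃ (n : ℕ) (C₀ : Type u) (_ : CommRing C₀) (_ : Algebra (MvPolynomial (Fin n) A₀) C₀)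
      (_ : Algebra A₀ C₀) (_ : IsScalarTower A₀ (MvPolynomial (Fin n) A₀) C₀)
      (τ : B₀ →ₐ[A₀] C₀) (r : C₀ →ₐ[A₀] B₀),
      Algebra.Etale (MvPolynomial (Fin n) A₀) C₀ ∧ r.comp τ = AlgHom.id A₀ B₀ := by
  obtain ⟨n, f, hf⟩ := (Algebra.FiniteType.iff_quotient_mvPolynomial'' (R := A₀) (S := B₀)).mp inferInstance
  let P₀ := MvPolynomial (Fin n) A₀
  let I₀ : Ideal P₀ := RingHom.ker f
  let k : (P₀ ⧸ I₀) ≃ₐ[A₀] B₀ := Ideal.quotientKerAlgEquivOfSurjective hf
  let σ : P₀ ⊗[A₀] B₀ →ₐ[P₀] P₀ ⧸ I₀ :=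
    Algebra.TensorProduct.lift (Algebra.ofId P₀ (P₀ ⧸ I₀)) k.symm.toAlgHom (fun _ _ => Commute.all _ _)
  have hσ : ∀ b : B₀, σ (1 ⊗ₜ b) = k.symm b := by
    intro b
    simp [σ]
  obtain ⟨C₀, _, _, h1, h2, τ', h3⟩ :=
    Groth.Agent.CalgB.EtaleNbhd.exists_etale_lift_section_of_smooth I₀ σ
  let _ : Algebra A₀ C₀ := ((algebraMap P₀ C₀).comp (algebraMap A₀ P₀)).toAlgebra
  have : IsScalarTower A₀ P₀ C₀ := IsScalarTower.of_algebraMap_eq' rfl
  let τ : B₀ →ₐ[A₀] C₀ := (τ'.restrictScalars A₀).comp Algebra.TensorProduct.includeRight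
  let E := RingEquiv.ofBijective (algebraMap (P₀ ⧸ I₀) (C₀ ⧸ I₀.map (algebraMap P₀ C₀))) h2
  let r₀ : C₀ →+* B₀ := (k.toAlgHom.toRingHom.comp E.symm.toRingHom).comp (Ideal.Quotient.mk (I₀.map (algebraMap P₀ C₀)))
  have hr₀ : ∀ (c : C₀) (x : P₀ ⧸ I₀), Ideal.Quotient.mk (I₀.map (algebraMap P₀ C₀)) c =
      algebraMap (P₀ ⧸ I₀) (C₀ ⧸ I₀.map (algebraMap P₀ C₀)) x → r₀ c = k x := by
    intro c x hc
    change k (E.symm (Ideal.Quotient.mk (I₀.map (algebraMap P₀ C₀)) c)) = k x
    rw [hc]
    congr 1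
    exact E.symm_apply_apply x
  let r : C₀ →ₐ[A₀] B₀ :=
    { r₀ with
      commutes' := by
        intro a
        change r₀ (algebraMap A₀ C₀ a) = algebraMap A₀ B₀ a
        rw [hr₀ (algebraMap A₀ C₀ a) (algebraMap A₀ (P₀ ⧸ I₀) a) rfl, AlgEquiv.commutes] }
  refine ⟨n, C₀, inferInstance, inferInstance, inferInstance, inferInstance, τ, r, h1, ?_⟩
  ext b
  change r₀ (τ' (1 ⊗ₜ b)) = b
  rw [hr₀ _ _ (h3 _), hσ, AlgEquiv.apply_symm_apply]

/-- Smooth algebras lift along square-zero thickenings. -/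
theorem exists_smooth_lift' {A A₀ : Type u} [CommRing A] [CommRing A₀] (φ : A →+* A₀)
    (hφ : Function.Surjective φ) (h2 : (RingHom.ker φ) ^ 2 = ⊥) (B₀ : Type u) [CommRing B₀] [Algebra A₀ B₀]
    [Algebra.Smooth A₀ B₀] :
    ∃ (B : Type u) (_ : CommRing B) (_ : Algebra A B) (q : B →+* B₀), Algebra.Smooth A B ∧
      Function.Surjective q ∧ q.comp (algebraMap A B) = (algebraMap A₀ B₀).comp φ ∧
      RingHom.ker q = (RingHom.ker φ).map (algebraMap A B) := by
  obtain ⟨n, C₀, _, _, _, _, τ, r, h1, h3⟩ := exists_retract A₀ B₀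
  let P₀ := MvPolynomial (Fin n) A₀
  let P := MvPolynomial (Fin n) A
  let ψ : P →+* P₀ := MvPolynomial.map φ
  have hψ : Function.Surjective ψ := MvPolynomial.map_surjective φ hφ
  obtain ⟨C, _, _, π, h4, h5, h6, h7⟩ := exists_etale_lift' ψ hψ C₀
  let _ : Algebra A C := ((algebraMap P C).comp (algebraMap A P)).toAlgebra
  have : IsScalarTower A P C := IsScalarTower.of_algebraMap_eq' rfl
  have hP : Algebra.Smooth A P :=
    { formallySmooth := (inferInstance : Algebra.FormallySmooth A (MvPolynomial (Fin n) A))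
      finitePresentation := (inferInstance : Algebra.FinitePresentation A (MvPolynomial (Fin n) A)) }
  have hC : Algebra.Smooth A C := Algebra.Smooth.comp A P C
  let _ : Algebra A C₀ := ((algebraMap A₀ C₀).comp φ).toAlgebra
  let _ : Algebra A B₀ := ((algebraMap A₀ B₀).comp φ).toAlgebra
  let π' : C →ₐ[A] C₀ :=
    { π with
      commutes' := by
        intro a
        have h8 := congr($h6 (algebraMap A P a))
        change π (algebraMap P C (algebraMap A P a)) = algebraMap P₀ C₀ (ψ (MvPolynomial.C a)) at h8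
        change π (algebraMap P C (algebraMap A P a)) = algebraMap A₀ C₀ (φ a)
        rw [h8, IsScalarTower.algebraMap_apply A₀ P₀ C₀]
        congr 1
        exact MvPolynomial.map_C φ a }
  have hker : RingHom.ker π' = (RingHom.ker φ).map (algebraMap A C) := by
    have h9 : RingHom.ker π' = RingHom.ker π := rfl
    rw [h9, h7]
    have h10 : RingHom.ker ψ = (RingHom.ker φ).map (algebraMap A P) := MvPolynomial.ker_map φ
    rw [h10, Ideal.map_map]
    rfl
  let τ' : B₀ →ₐ[A] C₀ := { τ.toRingHom with commutes' := fun a => τ.commutes (φ a) }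
  let r' : C₀ →ₐ[A] B₀ := { r.toRingHom with commutes' := fun a => r.commutes (φ a) }
  obtain ⟨B, _, _, q, h11, h12, h13⟩ := exists_lift_of_retract (RingHom.ker φ) h2 π' h5 hker τ' r'
    (by ext x; exact congr($h3 x))
  exact ⟨B, inferInstance, inferInstance, q.toRingHom, h11, h12, q.comp_algebraMap, h13⟩

end Groth.Agent.Pi1.H421.SmoothLift2
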