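import Mathlib.AlgebraicGeometry.Gluing
import Mathlib.AlgebraicGeometry.Limits
import Mathlib.AlgebraicGeometry.Morphisms.Basic
import Mathlib.CategoryTheory.Limits.Shapes.Pullback.IsPullback.Basic

/-!
Gluing two schemes along open immersions.
-/

set_option autoImplicit false
universe u

open CategoryTheory CategoryTheory.Limits AlgebraicGeometry

namespace Groth.Agent.Pi1.H421.TwoGlue

variable {W U V : Scheme.{u}}

/-- Two open immersions with source `W` can be glued. -/
theorem exists_glue (a : W ⟶ U) (b : W ⟶ V) [IsOpenImmersion a] [IsOpenImmersion b] :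
    ∃ (X : Scheme.{u}) (i : U ⟶ X) (j : V ⟶ X), IsOpenImmersion i ∧ IsOpenImmersion j ∧
      IsPushout a b i j ∧ (∀ x : X, (∃ u, i u = x) ∨ ∃ v, j v = x) ∧
      (∀ (x : U) (y : V), i x = j y → ∃ w, a w = x ∧ b w = y) := by
  let F : WidePushoutShape WalkingPair ⥤ Scheme.{u} := span a b
  have hF : ∀ {x y : WidePushoutShape WalkingPair} (f : x ⟶ y), IsOpenImmersion (F.map f) := by
    intro x y f
    cases f with
    | id =>
      have h0 : F.map (𝟙 x) = 𝟙 (F.obj x) := F.map_id x
      exact h0 ▸ (inferInstance : IsOpenImmersion (𝟙 (F.obj x)))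
    | init j =>
      cases j with
      | left => exact (inferInstance : IsOpenImmersion a)
      | right => exact (inferInstance : IsOpenImmersion b)
  have h1 : IsOpenImmersion (pushout.inl a b) :=
    (inferInstance : IsOpenImmersion (colimit.ι F (some WalkingPair.left)))
  have h2 : IsOpenImmersion (pushout.inr a b) :=
    (inferInstance : IsOpenImmersion (colimit.ι F (some WalkingPair.right)))
  refine ⟨pushout a b, pushout.inl a b, pushout.inr a b, h1, h2, IsPushout.of_hasPushout a b, ?_, ?_⟩
  · intro x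
    obtain ⟨i, xi, hx⟩ := Scheme.IsLocallyDirected.ι_jointly_surjective F x
    match i, xi, hx with
    | none, w, hx =>
      left
      refine ⟨a w, ?_⟩
      rw [← hx]
      have := colimit.w F (WidePushoutShape.Hom.init WalkingPair.left)
      rw [← this]
      rfl
    | some WalkingPair.left, u, hx => exact Or.inl ⟨u, hx⟩
    | some WalkingPair.right, v, hx => exact Or.inr ⟨v, hx⟩
  · intro x y hxy
    obtain ⟨k, fi, fj, w, hw1, hw2⟩ := (Scheme.IsLocallyDirected.ι_eq_ι_iff F
      (i := some WalkingPair.left) (j := some WalkingPair.right) (xi := x) (xj := y)).mp hxy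
    match k, fi, fj, w, hw1, hw2 with
    | none, WidePushoutShape.Hom.init _, WidePushoutShape.Hom.init _, w, hw1, hw2 => exact ⟨w, hw1, hw2⟩

/-- Two jointly surjective open immersions form a pushout of their intersection. -/
theorem isPushout_of_isPullback {X : Scheme.{u}} (a : W ⟶ U) (b : W ⟶ V) (i : U ⟶ X) (j : V ⟶ X)
    [IsOpenImmersion i] [IsOpenImmersion j] (h : IsPullback a b i j)
    (hc : ∀ x : X, (∃ u, i u = x) ∨ ∃ v, j v = x) : IsPushout a b i j := by
  let 𝒰 : X.OpenCover :=
    { I₀ := ULift.{u} Bool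
      X := fun k => if k.down then U else V
      f := fun k => match k with
        | ⟨true⟩ => i
        | ⟨false⟩ => j
      mem₀ := by
        rw [Scheme.presieve₀_mem_precoverage_iff]
        refine ⟨fun x => ?_, fun k => ?_⟩
        · rcases hc x with ⟨u, hu⟩ | ⟨v, hv⟩
          · exact ⟨⟨true⟩, u, hu⟩
          · exact ⟨⟨false⟩, v, hv⟩
        · match k with
          | ⟨true⟩ => exact (inferInstance : IsOpenImmersion i)
          | ⟨false⟩ => exact (inferInstance : IsOpenImmersion j) }
  have hext : ∀ {T : Scheme.{u}} (f g : X ⟶ T), i ≫ f = i ≫ g → j ≫ f = j ≫ g → f = g := by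
    intro T f g h1 h2
    refine Scheme.Cover.hom_ext 𝒰 _ _ fun k => ?_
    match k with
    | ⟨true⟩ => exact h1
    | ⟨false⟩ => exact h2
  let mor : ∀ (c : PushoutCocone a b) (k : 𝒰.I₀), 𝒰.X k ⟶ c.pt := fun c k => match k with
      | ⟨true⟩ => c.inl
      | ⟨false⟩ => c.inr
  have hmor : ∀ (c : PushoutCocone a b) (k l : 𝒰.I₀),
      pullback.fst (𝒰.f k) (𝒰.f l) ≫ mor c k = pullback.snd _ _ ≫ mor c l := by
    intro c k l
    match k, l with
    | ⟨true⟩, ⟨true⟩ =>
      change pullback.fst i i ≫ c.inl = pullback.snd i i ≫ c.inl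
      rw [(cancel_mono i).mp (pullback.condition (f := i) (g := i))]
    | ⟨false⟩, ⟨false⟩ =>
      change pullback.fst j j ≫ c.inr = pullback.snd j j ≫ c.inr
      rw [(cancel_mono j).mp (pullback.condition (f := j) (g := j))]
    | ⟨true⟩, ⟨false⟩ =>
      change pullback.fst i j ≫ c.inl = pullback.snd i j ≫ c.inr
      rw [← cancel_epi h.isoPullback.hom]
      rw [← Category.assoc, ← Category.assoc, h.isoPullback_hom_fst, h.isoPullback_hom_snd]
      exact c.condition
    | ⟨false⟩, ⟨true⟩ =>
      change pullback.fst j i ≫ c.inr = pullback.snd j i ≫ c.inl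
      rw [← cancel_epi h.flip.isoPullback.hom]
      rw [← Category.assoc, ← Category.assoc, h.flip.isoPullback_hom_fst, h.flip.isoPullback_hom_snd]
      exact c.condition.symm
  have hg1 : ∀ c, i ≫ Scheme.Cover.glueMorphisms 𝒰 (mor c) (hmor c) = c.inl := fun c =>
    Scheme.Cover.ι_glueMorphisms 𝒰 (mor c) (hmor c) ⟨true⟩
  have hg2 : ∀ c, j ≫ Scheme.Cover.glueMorphisms 𝒰 (mor c) (hmor c) = c.inr := fun c =>
    Scheme.Cover.ι_glueMorphisms 𝒰 (mor c) (hmor c) ⟨false⟩
  exact ⟨⟨h.w⟩, ⟨PushoutCocone.IsColimit.mk _ (fun c => Scheme.Cover.glueMorphisms 𝒰 (mor c) (hmor c))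
    hg1 hg2 (fun c m h1 h2 => hext _ _ (h1.trans (hg1 c).symm) (h2.trans (hg2 c).symm))⟩⟩

/-- Properties local at the source can be checked on two jointly surjective open immersions. -/
theorem of_two {P : MorphismProperty Scheme.{u}} [IsZariskiLocalAtSource P] {X Y : Scheme.{u}} (i : U ⟶ X) (j : V ⟶ X)
    [IsOpenImmersion i] [IsOpenImmersion j] (hc : ∀ x : X, (∃ u, i u = x) ∨ ∃ v, j v = x)
    (f : X ⟶ Y) (h1 : P (i ≫ f)) (h2 : P (j ≫ f)) : P f := by
  let 𝒰 : X.OpenCover :=
    { I₀ := ULift.{u} Bool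
      X := fun k => if k.down then U else V
      f := fun k => match k with
        | ⟨true⟩ => i
        | ⟨false⟩ => j
      mem₀ := by
        rw [Scheme.presieve₀_mem_precoverage_iff]
        refine ⟨fun x => ?_, fun k => ?_⟩
        · rcases hc x with ⟨u, hu⟩ | ⟨v, hv⟩
          · exact ⟨⟨true⟩, u, hu⟩
          · exact ⟨⟨false⟩, v, hv⟩
        · match k with
          | ⟨true⟩ => exact (inferInstance : IsOpenImmersion i)
          | ⟨false⟩ => exact (inferInstance : IsOpenImmersion j) }
  refine IsZariskiLocalAtSource.of_openCover 𝒰 fun k => ?_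
  match k with
  | ⟨true⟩ => exact h1
  | ⟨false⟩ => exact h2

end Groth.Agent.Pi1.H421.TwoGlue
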